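import Mathlib

/-! Complements in subgroup lattices from a complemented interval below a unique maximal subgroup. -/

set_option autoImplicit false

namespace CfsgLib.KLat

open scoped Pointwise

variable {G : Type*} [Group G]

/-- Relative complement from a complemented interval `[T, X]` with `X` in a unique maximal subgroup. -/
theorem exists_rel_complement [Finite G] (T X M : Subgroup G) (hTX : T ≤ X)
    (hint : ∀ Y : Subgroup G, T ≤ Y → Y ≤ X → ∃ C : Subgroup G, T ≤ C ∧ C ≤ X ∧ Y ⊔ C = X ∧ Y ⊓ C = T)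
    (huniq : ∀ M' : Subgroup G, IsCoatom M' → X ≤ M' → M' = M)
    (H : Subgroup G) (hH : ¬ H ≤ M) :
    ∃ C : Subgroup G, T ≤ C ∧ H ⊔ C = ⊤ ∧ H ⊓ C ≤ T := by
  obtain ⟨C, hTC, hCX, hsup, hinf⟩ := hint ((H ⊓ X) ⊔ T) le_sup_right (sup_le inf_le_right hTX)
  refine ⟨C, hTC, ?_, ?_⟩
  · by_contra hne
    obtain h | ⟨M', hM', hle⟩ := eq_top_or_exists_le_coatom (H ⊔ C)
    · exact hne h
    · have hXle : X ≤ H ⊔ C := by
        rw [← hsup]
        exact sup_le (sup_le (inf_le_left.trans le_sup_left) (hTC.trans le_sup_right)) le_sup_right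
      have := huniq M' hM' (hXle.trans hle)
      exact hH (this ▸ le_sup_left.trans hle)
  · rw [← hinf]
    refine le_inf ?_ inf_le_right
    exact le_sup_of_le_left (le_inf inf_le_left (inf_le_right.trans hCX))

/-- The conjugated version: `H` is not contained in the conjugate of `M` by `g`. -/
theorem exists_rel_complement_conj [Finite G] (T X M : Subgroup G) (hTX : T ≤ X)
    (hint : ∀ Y : Subgroup G, T ≤ Y → Y ≤ X → ∃ C : Subgroup G, T ≤ C ∧ C ≤ X ∧ Y ⊔ C = X ∧ Y ⊓ C = T)
    (huniq : ∀ M' : Subgroup G, IsCoatom M' → X ≤ M' → M' = M)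
    (H : Subgroup G) (g : G) (hH : ¬ H ≤ M.map (MulAut.conj g).toMonoidHom) :
    ∃ C : Subgroup G, T.map (MulAut.conj g).toMonoidHom ≤ C ∧ H ⊔ C = ⊤ ∧
      H ⊓ C ≤ T.map (MulAut.conj g).toMonoidHom := by
  set e : Subgroup G ≃o Subgroup G := (MulAut.conj g).mapSubgroup with he
  have hev : ∀ K : Subgroup G, e K = K.map (MulAut.conj g).toMonoidHom := fun K => rfl
  have hH' : ¬ e.symm H ≤ M := by
    intro h
    apply hH
    rw [← hev, ← e.symm_apply_le]
    exact h
  obtain ⟨C, h1, h2, h3⟩ := exists_rel_complement T X M hTX hint huniq (e.symm H) hH'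
  refine ⟨e C, ?_, ?_, ?_⟩
  · rw [← hev]; exact e.monotone h1
  · have := congrArg e h2
    rwa [e.map_sup, e.apply_symm_apply, e.map_top] at this
  · have := e.monotone h3
    rwa [e.map_inf, e.apply_symm_apply, hev T] at this

/-- A complemented subgroup lattice of `X / (N ∩ X)` gives a complemented interval `[N, X]` when `N ≤ X`. -/
theorem interval_of_quotient (N X : Subgroup G) (hNX : N ≤ X) [(N.subgroupOf X).Normal]
    (hK : ComplementedLattice (Subgroup (X ⧸ N.subgroupOf X))) :
    ∀ Y : Subgroup G, N ≤ Y → Y ≤ X → ∃ C : Subgroup G, N ≤ C ∧ C ≤ X ∧ Y ⊔ C = X ∧ Y ⊓ C = N := by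
  intro Y hNY hYX
  set π := QuotientGroup.mk' (N.subgroupOf X) with hπ
  have hker : π.ker = N.subgroupOf X := QuotientGroup.ker_mk' _
  obtain ⟨D, hD⟩ := exists_isCompl ((Y.subgroupOf X).map π)
  have hsurj : Function.Surjective π := QuotientGroup.mk'_surjective _
  have hY' : ((Y.subgroupOf X).map π).comap π = Y.subgroupOf X := by
    rw [Subgroup.comap_map_eq, hker, sup_eq_left]
    exact Subgroup.comap_mono hNY
  have h1 : Y.subgroupOf X ⊔ D.comap π = ⊤ := by
    rw [← hY', Subgroup.comap_sup_eq π _ _ hsurj, hD.sup_eq_top, Subgroup.comap_top]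
  have h2 : Y.subgroupOf X ⊓ D.comap π = N.subgroupOf X := by
    rw [← hY', ← Subgroup.comap_inf, hD.inf_eq_bot, MonoidHom.comap_bot, hker]
  refine ⟨(D.comap π).map X.subtype, ?_, Subgroup.map_subtype_le _, ?_, ?_⟩
  · have : N.subgroupOf X ≤ D.comap π := h2.symm.le.trans inf_le_right
    have h3 := Subgroup.map_mono (f := X.subtype) this
    rwa [Subgroup.subgroupOf_map_subtype, inf_eq_left.2 hNX] at h3
  · have := congrArg (Subgroup.map X.subtype) h1
    rwa [Subgroup.map_sup, Subgroup.subgroupOf_map_subtype, inf_eq_left.2 hYX,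
      ← MonoidHom.range_eq_map, Subgroup.range_subtype] at this
  · have := congrArg (Subgroup.map X.subtype) h2
    rwa [Subgroup.map_inf_eq _ _ _ X.subtype_injective, Subgroup.subgroupOf_map_subtype,
      inf_eq_left.2 hYX, Subgroup.subgroupOf_map_subtype, inf_eq_left.2 hNX] at this

/-- A complemented subgroup lattice of `X` gives a complemented interval `[N, X ⊔ N]` for normal `N`. -/
theorem interval_of_complemented (N X : Subgroup G) [N.Normal]
    (hK : ComplementedLattice (Subgroup X)) :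
    ∀ Y : Subgroup G, N ≤ Y → Y ≤ X ⊔ N →
      ∃ C : Subgroup G, N ≤ C ∧ C ≤ X ⊔ N ∧ Y ⊔ C = X ⊔ N ∧ Y ⊓ C = N := by
  intro Y hNY hYX
  obtain ⟨D, hD⟩ := exists_isCompl (Y.subgroupOf X)
  have h1 : (Y ⊓ X) ⊔ D.map X.subtype = X := by
    have := congrArg (Subgroup.map X.subtype) hD.sup_eq_top
    rwa [Subgroup.map_sup, Subgroup.subgroupOf_map_subtype,
      ← MonoidHom.range_eq_map, Subgroup.range_subtype] at this
  have h2 : (Y ⊓ X) ⊓ D.map X.subtype = ⊥ := by
    have := congrArg (Subgroup.map X.subtype) hD.inf_eq_bot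
    rwa [Subgroup.map_inf_eq _ _ _ X.subtype_injective, Subgroup.subgroupOf_map_subtype,
      Subgroup.map_bot] at this
  have hDX : D.map X.subtype ≤ X := Subgroup.map_subtype_le _
  refine ⟨D.map X.subtype ⊔ N, le_sup_right, sup_le_sup_right hDX _, ?_, ?_⟩
  · apply le_antisymm
    · exact sup_le hYX (sup_le_sup_right hDX _)
    · refine sup_le ?_ (le_sup_of_le_right le_sup_right)
      exact h1.symm.le.trans (sup_le (le_sup_of_le_left inf_le_left) (le_sup_of_le_right le_sup_left))
  · apply le_antisymm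
    · intro y hy
      obtain ⟨hyY, hy2⟩ := hy
      have hy2' : y ∈ ((D.map X.subtype ⊔ N : Subgroup G) : Set G) := hy2
      rw [Subgroup.mul_normal] at hy2'
      obtain ⟨d, hd, n, hn, rfl⟩ := hy2'
      have hdY : d ∈ Y := by
        have := Y.mul_mem hyY (Y.inv_mem (hNY hn))
        simpa using this
      have : d ∈ (Y ⊓ X) ⊓ D.map X.subtype := ⟨⟨hdY, hDX hd⟩, hd⟩
      rw [h2, Subgroup.mem_bot] at this
      subst this
      simpa using hn
    · exact le_inf hNY le_sup_right

theorem exists_conj_not_le_of_not_le_normalCore (H M : Subgroup G) (hH : ¬ H ≤ M.normalCore) :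
    ∃ g : G, ¬ H ≤ M.map (MulAut.conj g).toMonoidHom := by
  by_contra hc
  push Not at hc
  apply hH
  intro h hh b
  obtain ⟨m, hm, hmh⟩ := hc b⁻¹ hh
  have : b * h * b⁻¹ = m := by
    rw [← hmh]; simp [mul_assoc]
  rwa [this]

end CfsgLib.KLat
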